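import Cfsg.Agent.H865.L5.Base
import Cfsg.Agent.H83.RootCount
import Cfsg.Agent.ChevalleyStructure.NSimpleAll

/-!
# Fixed vectors (S5923 / S5924, piece C, helper342)
-/

set_option autoImplicit false
set_option linter.unusedSectionVars false

namespace Cfsg.Agent.H342.L5

open CoxeterSystem Subgroup Cfsg Cfsg.Lie Cfsg.Lie.ChevalleyDatum
open Cfsg.Agent.ChevalleyStructure Cfsg.Agent.ChevalleyStructure.Elts Cfsg.Agent.ChevalleyStructure.CoxeterGeom
  Cfsg.Agent.ChevalleyStructure.CoxeterGeomTypes Cfsg.Agent.ChevalleyStructure.NPerm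
open Cfsg.Agent.Tits.Roots Cfsg.Agent.Tits.Core Cfsg.Agent.Nodes Cfsg.Agent.Nodes.SubComb Cfsg.Agent.Nodes.Reps
  Cfsg.Agent.Nodes.BNOf Cfsg.Agent.Nodes.RGDChev Cfsg.Agent.Nodes.Bruhat Cfsg.Agent.Nodes.Coroot
open Cfsg.Agent.KFacts.RgdField Cfsg.Agent.KFacts.RgdChevCoord Cfsg.Agent.BpExc.TorCent Cfsg.Agent.BpExc.TorChev
open Cfsg.Agent.GpExc.Field Cfsg.Agent.BpExc.Tow Cfsg.Agent.BpExc.TowChev Cfsg.Agent.BpExc.Fr
  Cfsg.Agent.BpExc.LangFr Cfsg.Agent.BpExc.FamField Cfsg.Agent.BpExc.FamInst Cfsg.Agent.H129.TorusChar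
  Cfsg.Agent.H795.LangT Cfsg.Agent.BpExc.FamExt Cfsg.Agent.BpExc.FamUntw Cfsg.Agent.H378.TorDual Cfsg.Agent.H378.TorChar
  Cfsg.Agent.H378.TorFin Cfsg.Agent.H378.RankOne Cfsg.Agent.H378.RootTor Cfsg.Agent.H865.EE Cfsg.Agent.H865.L5

attribute [local irreducible] w8

section C
variable {k : Type} [Field k] [CharP k 3] [IsAlgClosed k] [PerfectRing k 3] (hk : LocFin k)

/-- the action of a torus element -/
theorem ac_TT {t : ↥(chevE8.group k)} (ht : t ∈ TT chevE8 k) (v : chevE8.Idx → k) :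
    ac t v = fun i => (Sum.elim (fun _ => (1 : k)) (fun s : Fin chevE8.nroots => cX tp8 t (vec chevE8 8 s)) i) * v i := by
  funext i
  show Matrix.mulVec ((t : GL chevE8.Idx k) : Matrix chevE8.Idx chevE8.Idx k) v i = _
  rw [H83.RootCount.coe_eq_diagonal tp8 ht, Matrix.mulVec_diagonal]

/-- C1 -/
theorem mem_Fx_reg {S : Set ↥(chevE8.group k)} (hS : S ⊆ TT chevE8 k) (hr : Reg S) {v : chevE8.Idx → k} :
    v ∈ Fx S ↔ ∀ r, v (Sum.inr r) = 0 := by
  rw [mem_Fx]
  constructor
  · intro h r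
    obtain ⟨t, ht, hne⟩ := hr _ (isRoot_vec tp8 cs8 r.2)
    have h1 := congrFun (h t ht) (Sum.inr r)
    rw [ac_TT (hS ht)] at h1
    simp only [Sum.elim_inr] at h1
    have h2 : (cX tp8 t (vec chevE8 8 r) - 1) * v (Sum.inr r) = 0 := by rw [sub_mul, one_mul, h1, sub_self]
    exact (mul_eq_zero.1 h2).resolve_left (sub_ne_zero.2 hne)
  · intro h t ht
    rw [ac_TT (hS ht)]
    funext i
    rcases i with i | r
    · rw [Sum.elim_inl, one_mul]
    · rw [h r, mul_zero]

/-- the Cartan matrix -/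
theorem cartan_simple : ∀ i j : Fin 8, chevE8.cartan j (chevE8.simple i) = C8 i j := by decide +kernel

theorem coe_nc (i : Fin 8) :
    ((nc tp8 k i : GL chevE8.Idx k) : Matrix chevE8.Idx chevE8.Idx k) = chevE8.nMat k (chevE8.simple i) 1 :=
  coe_nG tp8.inList _ _

theorem facts8 (i : Fin 8) : NSimple.Facts chevE8 i :=
  NSimpleAll.facts (by simp) i.2

/-- the entries of the simple reflections -/
theorem act_simple_sr (i j i' : Fin 8) :
    act (cs8.simple i) (sr j) i' = (if i' = j then 1 else 0) - (if i' = i then C8 i j else 0) := by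
  rw [act_simple]
  show (if i' = i then (sr j : Fin 8 → ℤ) i - ∑ k, C8 i k * (sr j : Fin 8 → ℤ) k else (sr j : Fin 8 → ℤ) i') = _
  have h1 : ∑ k, C8 i k * (sr j : Fin 8 → ℤ) k = C8 i j := by
    simp [sr, Pi.single_apply]
  have h2 : ∀ m, (sr j : Fin 8 → ℤ) m = if m = j then 1 else 0 := fun m => by
    simp [sr, Pi.single_apply]
  rw [h1, h2, h2]
  by_cases h : i' = i
  · subst h
    simp
  · simp [h]

/-- the vector of the Cartan part with given coordinates -/
def cv (c : Fin 8 → k) : chevE8.Idx → k := Sum.elim c 0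

theorem cv_inl (c : Fin 8 → k) (i : Fin 8) : cv c (Sum.inl i) = c i := rfl

theorem cv_inr (c : Fin 8 → k) (r : Fin chevE8.nroots) : cv c (Sum.inr r) = 0 := rfl

theorem cv_ext {v : chevE8.Idx → k} {c : Fin 8 → k} (h1 : ∀ i : Fin 8, v (Sum.inl i) = c i)
    (h2 : ∀ r : Fin chevE8.nroots, v (Sum.inr r) = 0) : v = cv c := by
  funext row
  rcases row with i | r
  · exact h1 i
  · exact h2 r

theorem ac_nc_apply (i : Fin 8) (v : chevE8.Idx → k) (row : chevE8.Idx) : ac (nc tp8 k i) v row =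
    (∑ j : Fin chevE8.rank, chevE8.nMat k (chevE8.simple i) 1 row (Sum.inl j) * v (Sum.inl j)) +
      ∑ r : Fin chevE8.nroots, chevE8.nMat k (chevE8.simple i) 1 row (Sum.inr r) * v (Sum.inr r) := by
  show Matrix.mulVec ((nc tp8 k i : GL chevE8.Idx k) : Matrix chevE8.Idx chevE8.Idx k) v row = _
  rw [coe_nc, Matrix.mulVec, dotProduct, Fintype.sum_sum_type]

/-- the action of the generators `n_i` on the Cartan part -/
theorem ac_nc (i : Fin 8) (c : Fin 8 → k) : ac (nc tp8 k i) (cv c) =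
    cv (fun i' => ∑ j, ((act (cs8.simple i) (sr j) i' : ℤ) : k) * c j) := by
  apply cv_ext
  · intro i'
    rw [ac_nc_apply]
    simp only [cv_inr, mul_zero, Finset.sum_const_zero, add_zero, NSimple.nMat_apply_inl k (facts8 i)]
    refine Finset.sum_congr rfl fun j _ => ?_
    have key : ∀ j : Fin 8, ((if i' = j then (1 : k) else 0) -
        (if (i' : ℕ) = (i : ℕ) then ((chevE8.cartan j (chevE8.simple i) : ℤ) : k) else 0)) * c j =
        ((act (cs8.simple i) (sr j) i' : ℤ) : k) * c j := by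
      intro j
      rw [act_simple_sr, cartan_simple i j]
      have e2 : ((i' : ℕ) = (i : ℕ)) ↔ i' = i := Fin.ext_iff.symm
      simp only [e2]
      push_cast
      rfl
    exact key j
  · intro r
    rw [ac_nc_apply]
    simp only [cv_inr, mul_zero, Finset.sum_const_zero, add_zero, NSimple.nMat_apply_inl k (facts8 i), Sum.elim_inr,
      zero_mul]

/-- linearity in coordinates -/
theorem act_eq_sum (w : W8) (x : Fin 8 → ℤ) (i : Fin 8) : act w x i = ∑ j, act w (sr j) i * x j := by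
  have h1 : x = ∑ j, x j • (sr j : Fin 8 → ℤ) := by
    funext i
    rw [Finset.sum_apply]
    simp [sr, Pi.single_apply]
  conv_lhs => rw [h1, map_sum]
  rw [Finset.sum_apply]
  refine Finset.sum_congr rfl fun j _ => ?_
  rw [map_smul, Pi.smul_apply, smul_eq_mul, mul_comm]

theorem ac_word (ω : List (Fin 8)) (c : Fin 8 → k) : ac ((ω.map (nc tp8 k)).prod) (cv c) =
    cv (fun i => ∑ j, ((act (cs8.wordProd ω) (sr j) i : ℤ) : k) * c j) := by
  induction ω generalizing c with
  | nil =>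
    rw [List.map_nil, List.prod_nil, ac_one, wordProd_nil]
    congr 1
    funext i
    simp [sr, Pi.single_apply]
  | cons i ω ih =>
    rw [List.map_cons, List.prod_cons, ac_mul, ih, ac_nc, wordProd_cons]
    congr 1
    funext i'
    simp only [act_mul]
    have h1 : ∀ j, ((act (cs8.simple i) (act (cs8.wordProd ω) (sr j)) i' : ℤ) : k) =
        ∑ m, ((act (cs8.simple i) (sr m) i' : ℤ) : k) * ((act (cs8.wordProd ω) (sr j) m : ℤ) : k) := by
      intro j
      rw [act_eq_sum]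
      push_cast
      rfl
    simp only [h1, Finset.mul_sum, Finset.sum_mul]
    rw [Finset.sum_comm]
    refine Finset.sum_congr rfl fun j _ => Finset.sum_congr rfl fun m _ => ?_
    ring

/-- a canonical representative -/
theorem rp_word (hk : LocFin k) (ω : List (Fin 8)) :
    Rp cs8 (nsysL tp8 cs8 hk 3) (cs8.wordProd ω) ((ω.map (nc tp8 k)).prod) := by
  induction ω with
  | nil =>
    rw [wordProd_nil, List.map_nil, List.prod_nil]
    exact rp_one
  | cons i ω ih =>
    rw [wordProd_cons, List.map_cons, List.prod_cons]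
    exact Rp.mul ⟨(nsysL tp8 cs8 hk 3).norm i, wq_simple _ _ i⟩ ih

/-- the torus acts trivially on the Cartan part -/
theorem ac_TT_cv {t : ↥(chevE8.group k)} (ht : t ∈ TT chevE8 k) (c : Fin 8 → k) : ac t (cv c) = cv c := by
  rw [ac_TT ht]
  apply cv_ext
  · intro i
    show 1 * c i = c i
    rw [one_mul]
  · intro r
    show _ * (0 : k) = 0
    rw [mul_zero]

theorem ac_rp_cv (hk : LocFin k) {w : W8} {y : ↥(chevE8.group k)} (h : Rp cs8 (nsysL tp8 cs8 hk 3) w y)
    (c : Fin 8 → k) : ac y (cv c) = cv (fun i => ∑ j, ((act w (sr j) i : ℤ) : k) * c j) := by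
  obtain ⟨ω, rfl⟩ := cs8.wordProd_surjective w
  obtain ⟨hy, e1⟩ := h
  obtain ⟨hn, e2⟩ := rp_word hk ω
  -- `n⁻¹ y` lies in the torus
  have e3 : (((ω.map (nc tp8 k)).prod)⁻¹ * y) ∈ TT chevE8 k := by
    have e4 := e2.symm.trans e1
    rw [QuotientGroup.eq] at e4
    exact e4
  have e5 : y = (ω.map (nc tp8 k)).prod * (((ω.map (nc tp8 k)).prod)⁻¹ * y) := by rw [mul_inv_cancel_left]
  rw [e5, ac_mul, ac_TT_cv e3, ac_word]

/-- C2 -/
theorem ac_rp (hk : LocFin k) {w : W8} {y : ↥(chevE8.group k)} (h : Rp cs8 (nsysL tp8 cs8 hk 3) w y)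
    (c : Fin 8 → k) : ac y (Sum.elim c 0) = Sum.elim (fun i => ∑ j, ((act w (sr j) i : ℤ) : k) * c j) 0 :=
  ac_rp_cv hk h c

end C

end Cfsg.Agent.H342.L5
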